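import Mathlib

/-!
# The centralizer of an element of order 13 (helper47, S5936, tasks E and F)
-/

set_option autoImplicit false

namespace Cfsg.Agent.H47.TFour

open Subgroup

section

variable {G : Type*} [Group G]

/-- the elements `y1 ^ i y2 ^ j` -/
theorem inj_two {y1 y2 : G} (_hy : y1 * y2 = y2 * y1) (o1 : orderOf y1 = 13) (o2 : orderOf y2 = 13)
    (hn : y2 ∉ Subgroup.zpowers y1) {i j i' j' : ℕ} (hi : i < 13) (hj : j < 13) (hi' : i' < 13) (hj' : j' < 13)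
    (h : y1 ^ i * y2 ^ j = y1 ^ i' * y2 ^ j') : i = i' ∧ j = j' := by
  have key : ∀ {i j i' j' : ℕ}, j < 13 → j' < 13 → j' ≤ j → y1 ^ i * y2 ^ j = y1 ^ i' * y2 ^ j' → j = j' := by
    intro i j i' j' hj hj' hle h
    by_contra hne
    apply hn
    -- `y2 ^ (j - j') ∈ ⟨y1⟩`
    have h1 : y2 ^ (j - j') = (y1 ^ i)⁻¹ * y1 ^ i' := by
      have h2 : y2 ^ j = y2 ^ (j - j') * y2 ^ j' := by rw [← pow_add]; congr 1; omega
      rw [h2, ← mul_assoc] at h
      have h3 := mul_right_cancel h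
      rw [← h3]; group
    have h2 : y2 ^ (j - j') ∈ zpowers y1 := by
      rw [h1]
      exact mul_mem (inv_mem (pow_mem (mem_zpowers _) _)) (pow_mem (mem_zpowers _) _)
    have h3 : Nat.Coprime (j - j') 13 :=
      ((Nat.Prime.coprime_iff_not_dvd (by norm_num)).2 fun hd => by
        have := Nat.le_of_dvd (by omega) hd
        omega).symm
    obtain ⟨m, -, hm⟩ := Nat.exists_mul_mod_eq_one_of_coprime h3 (by norm_num)
    have h4 : y2 = (y2 ^ (j - j')) ^ m := by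
      rw [← pow_mul]
      conv_lhs => rw [← pow_one y2]
      rw [pow_eq_pow_iff_modEq, o2]
      exact hm.symm
    rw [h4]
    exact pow_mem h2 m
  have hjj : j = j' := by
    rcases le_total j' j with h1 | h1
    · exact key hj hj' h1 h
    · exact (key hj' hj h1 h.symm).symm
  subst hjj
  have h1 := mul_right_cancel h
  rw [pow_eq_pow_iff_modEq, o1, Nat.ModEq, Nat.mod_eq_of_lt hi, Nat.mod_eq_of_lt hi'] at h1
  exact ⟨h1, rfl⟩

/-! ### F2 -/

theorem card_pairs : ((Finset.univ : Finset (Fin 13 × Fin 13)).filter fun p =>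
    ¬ 13 ∣ (p.1 : ℕ) ∧ ¬ 13 ∣ (p.2 : ℕ) ∧ ¬ ((p.1 : ℕ) ^ 4 ≡ (p.2 : ℕ) ^ 4 [MOD 13])).card = 96 := by
  decide +kernel

theorem card_dvd [Finite G] {x y1 y2 : G} (hy : y1 * y2 = y2 * y1) (o1 : orderOf y1 = 13)
    (o2 : orderOf y2 = 13) (hn : y2 ∉ Subgroup.zpowers y1) (hC : ∀ c : G, c * x = x * c ↔ ∃ i j : ℕ, c = y1 ^ i * y2 ^ j)
    (hg : ∀ i j : ℕ, IsConj x (y1 ^ i * y2 ^ j) ↔ (¬ 13 ∣ i ∧ ¬ 13 ∣ j ∧ ¬ (i ^ 4 ≡ j ^ 4 [MOD 13]))) :
    Nat.card (Subgroup.normalizer (Subgroup.centralizer ({x} : Set G) : Set G)) ∣ 13 ^ 2 * 96 := by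
  classical
  set P := Subgroup.centralizer ({x} : Set G) with hP
  have hPm : ∀ c : G, c ∈ P ↔ ∃ i j : ℕ, c = y1 ^ i * y2 ^ j := by
    intro c
    rw [hP, mem_centralizer_singleton_iff]
    exact hC c
  have p1 : y1 ^ 13 = 1 := by rw [← o1, pow_orderOf_eq_one]
  have p2 : y2 ^ 13 = 1 := by rw [← o2, pow_orderOf_eq_one]
  have hred : ∀ (a : G) (_ : a ^ 13 = 1) (i : ℕ), a ^ i = a ^ (i % 13) := by
    intro a ha i
    conv_lhs => rw [← Nat.div_add_mod i 13]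
    rw [pow_add, pow_mul, ha, one_pow, one_mul]
  -- the parametrization
  have hbij : Function.Bijective (fun p : Fin 13 × Fin 13 =>
      (⟨y1 ^ (p.1 : ℕ) * y2 ^ (p.2 : ℕ), (hPm _).2 ⟨_, _, rfl⟩⟩ : P)) := by
    constructor
    · intro p q hpq
      obtain ⟨h1, h2⟩ := inj_two hy o1 o2 hn p.1.2 p.2.2 q.1.2 q.2.2 (congrArg Subtype.val hpq)
      exact Prod.ext (Fin.ext h1) (Fin.ext h2)
    · rintro ⟨c, hc⟩
      obtain ⟨i, j, rfl⟩ := (hPm c).1 hc
      refine ⟨(⟨i % 13, Nat.mod_lt _ (by norm_num)⟩, ⟨j % 13, Nat.mod_lt _ (by norm_num)⟩), Subtype.ext ?_⟩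
      show y1 ^ (i % 13) * y2 ^ (j % 13) = _
      rw [← hred y1 p1, ← hred y2 p2]
  have hPc : Nat.card P = 169 := by
    rw [← Nat.card_congr (Equiv.ofBijective _ hbij), Nat.card_prod, Nat.card_eq_fintype_card, Fintype.card_fin]
  -- `P` is abelian
  have hPab : ∀ a ∈ P, ∀ b ∈ P, a * b = b * a := by
    intro a ha b hb
    obtain ⟨i, j, rfl⟩ := (hPm a).1 ha
    obtain ⟨i', j', rfl⟩ := (hPm b).1 hb
    have hc : Commute y1 y2 := hy
    have c1 : Commute (y1 ^ i) (y1 ^ i' * y2 ^ j') :=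
      ((Commute.refl y1).pow_pow i i').mul_right (hc.pow_pow i j')
    have c2 : Commute (y2 ^ j) (y1 ^ i' * y2 ^ j') :=
      (hc.symm.pow_pow j i').mul_right ((Commute.refl y2).pow_pow j j')
    exact (c1.mul_left c2).eq
  -- the set of conjugates of `x` in `P`
  let N := Subgroup.normalizer (P : Set G)
  have hPN : P ≤ N := le_normalizer
  let Ω := {c : G // c ∈ P ∧ IsConj x c}
  have hΩ : Nat.card Ω = 96 := by
    have h1 : Nat.card {p : Fin 13 × Fin 13 // ¬ 13 ∣ (p.1 : ℕ) ∧ ¬ 13 ∣ (p.2 : ℕ) ∧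
        ¬ ((p.1 : ℕ) ^ 4 ≡ (p.2 : ℕ) ^ 4 [MOD 13])} = 96 := by
      rw [Nat.card_eq_fintype_card, Fintype.card_subtype]
      exact card_pairs
    rw [← h1]
    symm
    refine Nat.card_congr (Equiv.ofBijective (fun p => ⟨y1 ^ (p.1.1 : ℕ) * y2 ^ (p.1.2 : ℕ),
      (hPm _).2 ⟨_, _, rfl⟩, (hg _ _).2 p.2⟩) ⟨?_, ?_⟩)
    · intro p q hpq
      have h2 : y1 ^ (p.1.1 : ℕ) * y2 ^ (p.1.2 : ℕ) = y1 ^ (q.1.1 : ℕ) * y2 ^ (q.1.2 : ℕ) := congrArg Subtype.val hpq
      obtain ⟨h3, h4⟩ := inj_two hy o1 o2 hn p.1.1.2 p.1.2.2 q.1.1.2 q.1.2.2 h2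
      exact Subtype.ext (Prod.ext (Fin.ext h3) (Fin.ext h4))
    · rintro ⟨c, hc, hcx⟩
      obtain ⟨q, hq⟩ := hbij.2 ⟨c, hc⟩
      have hq' : y1 ^ (q.1 : ℕ) * y2 ^ (q.2 : ℕ) = c := congrArg Subtype.val hq
      refine ⟨⟨q, (hg _ _).1 (by rw [hq']; exact hcx)⟩, Subtype.ext hq'⟩
  have hmem : ∀ (g : N) (c : G), c ∈ P ∧ IsConj x c → (g : G) * c * (g : G)⁻¹ ∈ P ∧ IsConj x ((g : G) * c * (g : G)⁻¹) :=
    fun g c hc => ⟨(mem_normalizer_iff.1 g.2 c).1 hc.1, hc.2.trans (isConj_iff.2 ⟨g, rfl⟩)⟩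
  let act : MulAction N Ω :=
    { smul := fun g ω => ⟨(g : G) * ω.1 * (g : G)⁻¹, hmem g ω.1 ω.2⟩
      one_smul := fun ω => Subtype.ext (by
        show ((1 : N) : G) * ω.1 * ((1 : N) : G)⁻¹ = ω.1
        simp)
      mul_smul := fun g h ω => Subtype.ext (by
        show ((g * h : N) : G) * ω.1 * ((g * h : N) : G)⁻¹ = (g : G) * ((h : G) * ω.1 * (h : G)⁻¹) * (g : G)⁻¹
        rw [coe_mul]; group) }
  have hstab : ∀ ω : Ω, MulAction.stabilizer N ω = P.subgroupOf N := by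
    intro ω
    obtain ⟨c, hc, hcx⟩ := ω
    have hle : P ≤ centralizer ({c} : Set G) := fun a ha =>
      mem_centralizer_singleton_iff.2 (hPab a ha c hc)
    have hcard : Nat.card (centralizer ({c} : Set G)) = 169 := by
      obtain ⟨h, hh⟩ := isConj_iff.1 hcx
      rw [← hPc, hP]
      symm
      refine Nat.card_congr ⟨fun a => ⟨h * a * h⁻¹, ?_⟩, fun a => ⟨h⁻¹ * a * h, ?_⟩, ?_, ?_⟩
      · have := mem_centralizer_singleton_iff.1 a.2
        rw [mem_centralizer_singleton_iff, ← hh]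
        calc h * a * h⁻¹ * (h * x * h⁻¹) = h * (a * x) * h⁻¹ := by group
          _ = h * (x * a) * h⁻¹ := by rw [this]
          _ = _ := by group
      · have h5 : (a : G) * (h * x * h⁻¹) = (h * x * h⁻¹) * a := by
          have := mem_centralizer_singleton_iff.1 a.2
          rw [hh]
          exact this
        rw [mem_centralizer_singleton_iff]
        calc h⁻¹ * a * h * x = h⁻¹ * (a * (h * x * h⁻¹)) * h := by group
          _ = h⁻¹ * ((h * x * h⁻¹) * a) * h := by rw [h5]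
          _ = _ := by group
      · intro a
        exact Subtype.ext (by show h⁻¹ * (h * a * h⁻¹) * h = a; group)
      · intro a
        exact Subtype.ext (by show h * (h⁻¹ * a * h) * h⁻¹ = a; group)
    have heq : P = centralizer ({c} : Set G) := Subgroup.eq_of_le_of_card_ge hle (by rw [hcard, hPc])
    ext g
    rw [MulAction.mem_stabilizer_iff, mem_subgroupOf]
    constructor
    · intro h
      have h1 : (g : G) * c * (g : G)⁻¹ = c := congrArg Subtype.val h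
      rw [heq, mem_centralizer_singleton_iff]
      exact mul_inv_eq_iff_eq_mul.1 h1
    · intro h
      rw [heq, mem_centralizer_singleton_iff] at h
      exact Subtype.ext (by
        show (g : G) * c * (g : G)⁻¹ = c
        rw [h]; group)
  have horb : ∀ ω : Ω, Nat.card (MulAction.orbit N ω) = (P.subgroupOf N).index := by
    intro ω
    rw [← hstab ω]
    exact (MulAction.index_stabilizer N ω).symm
  have hfin : Finite (Quotient (MulAction.orbitRel N Ω)) := inferInstance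
  have := Fintype.ofFinite (Quotient (MulAction.orbitRel N Ω))
  have h96 : Nat.card (Quotient (MulAction.orbitRel N Ω)) * (P.subgroupOf N).index = 96 := by
    rw [← hΩ, Nat.card_congr (MulAction.selfEquivSigmaOrbits N Ω), Nat.card_sigma,
      Finset.sum_congr rfl (fun ω _ => horb _), Finset.sum_const, smul_eq_mul, Nat.card_eq_fintype_card,
      Finset.card_univ]
  have hN := (P.subgroupOf N).card_mul_index
  rw [Nat.card_congr (Subgroup.subgroupOfEquivOfLe hPN).toEquiv, hPc] at hN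
  rw [← hN, ← h96]
  exact Nat.mul_dvd_mul (by norm_num) (dvd_mul_left _ _)

/-! ### E -/

/-- a fixed-point-free involutory automorphism of a subgroup of odd order -/
theorem inv_of_fpf [Finite G] {v : G} (hv : v * v = 1) (C : Subgroup G) (hn : ∀ c ∈ C, v * c * v⁻¹ ∈ C)
    (_ : Odd (Nat.card C)) (hfix : ∀ c ∈ C, c * v = v * c → c = 1) :
    (∀ c ∈ C, v * c * v⁻¹ = c⁻¹) ∧ ∀ a ∈ C, ∀ b ∈ C, a * b = b * a := by
  let φ : C →* C := MonoidHom.mk' (fun k => ⟨v * k * v⁻¹, hn k k.2⟩) (fun a b => Subtype.ext (by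
    show v * ((a : G) * b) * v⁻¹ = v * a * v⁻¹ * (v * b * v⁻¹)
    group))
  have hφ : ∀ k : C, ((φ k : C) : G) = v * k * v⁻¹ := fun _ => rfl
  have hvi : v⁻¹ = v := inv_eq_of_mul_eq_one_left hv
  have h1 : MonoidHom.FixedPointFree φ := by
    intro k hk
    have h2 : v * (k : G) * v⁻¹ = k := congrArg Subtype.val hk
    exact Subtype.ext (hfix k k.2 (mul_inv_eq_iff_eq_mul.1 h2).symm)
  have h2 : Function.Involutive φ := by
    intro k
    apply Subtype.ext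
    rw [hφ, hφ, hvi]
    calc v * (v * (k : G) * v) * v = (v * v) * k * (v * v) := by group
      _ = k := by rw [hv]; group
  constructor
  · intro c hc
    have h3 := congrFun (h1.coe_eq_inv_of_involutive h2) ⟨c, hc⟩
    exact congrArg Subtype.val h3
  · intro a ha b hb
    have h3 := h1.commute_all_of_involutive h2 ⟨a, ha⟩ ⟨b, hb⟩
    exact congrArg Subtype.val h3

theorem cent [Finite G] {x v y1 y2 T1 T2 : G} {b : ℕ} (h13 : ¬ 13 ^ 3 ∣ Nat.card G)
    (hodd : Odd (Nat.card (Subgroup.centralizer ({x} : Set G)))) (hv : v * v = 1) (hvx : v * x * v⁻¹ = x⁻¹)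
    (hfix : ∀ c : G, c * x = x * c → c * v = v * c → c = 1)
    (hy : y1 * y2 = y2 * y1) (o1 : orderOf y1 = 13) (o2 : orderOf y2 = 13) (hn : y2 ∉ Subgroup.zpowers y1)
    (hx : x = y1 * y2 ^ b)
    (hT1 : T1 * y1 * T1⁻¹ = y1⁻¹) (hT1' : T1 * y2 = y2 * T1) (hT2 : T2 * y2 * T2⁻¹ = y2⁻¹) (hT2' : T2 * y1 = y1 * T2)
    (hc1 : ∀ c : G, c * T1 = T1 * c → c * y2 = y2 * c → (orderOf c).Prime → orderOf c = 2 ∨ orderOf c = 13)
    (hc2 : ∀ c : G, c * T2 = T2 * c → c * y1 = y1 * c → (orderOf c).Prime → orderOf c = 2 ∨ orderOf c = 13)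
    (hT12 : T1 * T1 = 1) (hT22 : T2 * T2 = 1) :
    Nat.card (Subgroup.centralizer ({x} : Set G)) = 13 ^ 2 ∧ (∀ c : G, c * x = x * c → v * c * v⁻¹ = c⁻¹) ∧
      (∀ c : G, c * x = x * c → ∃ i j : ℕ, c = y1 ^ i * y2 ^ j) := by
  classical
  set C := Subgroup.centralizer ({x} : Set G) with hC
  have hCm : ∀ c : G, c ∈ C ↔ c * x = x * c := fun c => mem_centralizer_singleton_iff
  obtain ⟨hinv, hab⟩ := inv_of_fpf hv C (fun c hc => by
    rw [hCm] at hc ⊢
    have h1 : v * x⁻¹ * v⁻¹ = x := by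
      have h2 : (v * x * v⁻¹)⁻¹ = x := by rw [hvx, inv_inv]
      conv_rhs => rw [← h2]
      group
    have h3 : c * x⁻¹ = x⁻¹ * c := (Commute.inv_right (show Commute c x from hc)).eq
    calc v * c * v⁻¹ * x = v * c * v⁻¹ * (v * x⁻¹ * v⁻¹) := by rw [h1]
      _ = v * (c * x⁻¹) * v⁻¹ := by group
      _ = v * (x⁻¹ * c) * v⁻¹ := by rw [h3]
      _ = (v * x⁻¹ * v⁻¹) * (v * c * v⁻¹) := by group
      _ = x * (v * c * v⁻¹) := by rw [h1]) hodd (fun c hc hcv => hfix c ((hCm c).1 hc) hcv)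
  have hcy : Commute y1 y2 := hy
  have hy1C : y1 ∈ C := by
    rw [hCm, hx]
    exact ((Commute.refl y1).mul_right (hcy.pow_right b)).eq
  have hy2C : y2 ∈ C := by
    rw [hCm, hx]
    exact (hcy.symm.mul_right ((Commute.refl y2).pow_right b)).eq
  have hxC : x ∈ C := (hCm x).2 rfl
  have hCiff : ∀ c : G, c ∈ C ↔ c * y1 = y1 * c ∧ c * y2 = y2 * c := by
    intro c
    constructor
    · intro hc
      exact ⟨hab c hc y1 hy1C, hab c hc y2 hy2C⟩
    · rintro ⟨h1, h2⟩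
      rw [hCm, hx]
      exact ((show Commute c y1 from h1).mul_right ((show Commute c y2 from h2).pow_right b)).eq
  -- `T` inverting `y`, `c` commuting with `y`
  have hcj : ∀ {T y c : G}, T * T = 1 → T * y * T⁻¹ = y⁻¹ → c * y = y * c → (T * c * T⁻¹) * y = y * (T * c * T⁻¹) := by
    intro T y c hTT hTy hc
    have h1 : T * y⁻¹ * T⁻¹ = y := by
      have h2 : (T * y * T⁻¹)⁻¹ = y := by rw [hTy, inv_inv]
      conv_rhs => rw [← h2]
      group
    have h3 : c * y⁻¹ = y⁻¹ * c := (Commute.inv_right (show Commute c y from hc)).eq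
    calc (T * c * T⁻¹) * y = (T * c * T⁻¹) * (T * y⁻¹ * T⁻¹) := by rw [h1]
      _ = T * (c * y⁻¹) * T⁻¹ := by group
      _ = T * (y⁻¹ * c) * T⁻¹ := by rw [h3]
      _ = (T * y⁻¹ * T⁻¹) * (T * c * T⁻¹) := by group
      _ = y * (T * c * T⁻¹) := by rw [h1]
  have hcc : ∀ {T y c : G}, T * y = y * T → c * y = y * c → (T * c * T⁻¹) * y = y * (T * c * T⁻¹) := by
    intro T y c hT hc
    have h1 : Commute T y := hT
    have h2 : Commute c y := hc
    exact ((h1.mul_left h2).mul_left h1.inv_left).eq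
  have hT1C : ∀ c ∈ C, T1 * c * T1⁻¹ ∈ C := by
    intro c hc
    obtain ⟨h1, h2⟩ := (hCiff c).1 hc
    exact (hCiff _).2 ⟨hcj hT12 hT1 h1, hcc hT1' h2⟩
  have hT2C : ∀ c ∈ C, T2 * c * T2⁻¹ ∈ C := by
    intro c hc
    obtain ⟨h1, h2⟩ := (hCiff c).1 hc
    exact (hCiff _).2 ⟨hcc hT2' h1, hcj hT22 hT2 h2⟩
  -- `T1 T2` inverts `x`
  have hTx : (T1 * T2) * x * (T1 * T2)⁻¹ = x⁻¹ := by
    have h1 : T2 * x * T2⁻¹ = y1 * (y2 ^ b)⁻¹ := by
      rw [hx]
      have h2 : T2 * (y1 * y2 ^ b) * T2⁻¹ = (T2 * y1 * T2⁻¹) * (T2 * y2 * T2⁻¹) ^ b := by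
        rw [conj_pow]; group
      rw [h2, hT2, hT2', inv_pow]
      group
    have h3 : T1 * (T2 * x * T2⁻¹) * T1⁻¹ = y1⁻¹ * (y2 ^ b)⁻¹ := by
      rw [h1]
      have h2 : T1 * (y1 * (y2 ^ b)⁻¹) * T1⁻¹ = (T1 * y1 * T1⁻¹) * (T1 * (y2 ^ b)⁻¹ * T1⁻¹) := by group
      have h4 : T1 * (y2 ^ b)⁻¹ = (y2 ^ b)⁻¹ * T1 :=
        ((show Commute T1 y2 from hT1').pow_right b).inv_right.eq
      rw [h2, hT1, h4]
      group
    have h5 : (T1 * T2) * x * (T1 * T2)⁻¹ = T1 * (T2 * x * T2⁻¹) * T1⁻¹ := by group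
    rw [h5, h3, hx, mul_inv_rev]
    exact ((hcy.inv_inv).pow_right b |>.eq |> fun h => by
      rw [inv_pow] at h
      exact h)
  have hTv : T1 * T2 * v ∈ C := by
    rw [hCm]
    have h1 : (T1 * T2) * x⁻¹ * (T1 * T2)⁻¹ = x := by
      have h2 : ((T1 * T2) * x * (T1 * T2)⁻¹)⁻¹ = x := by rw [hTx, inv_inv]
      conv_rhs => rw [← h2]
      group
    have h3 : v * x = x⁻¹ * v := mul_inv_eq_iff_eq_mul.1 hvx
    calc T1 * T2 * v * x = T1 * T2 * (v * x) := by group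
      _ = T1 * T2 * (x⁻¹ * v) := by rw [h3]
      _ = ((T1 * T2) * x⁻¹ * (T1 * T2)⁻¹) * (T1 * T2 * v) := by group
      _ = x * (T1 * T2 * v) := by rw [h1]
  -- only the prime 13
  have hprime : ∀ r : ℕ, r.Prime → r ∣ Nat.card C → r = 13 := by
    intro r hr hd
    by_contra hne
    have hrf : Fact r.Prime := ⟨hr⟩
    have hr2 : r ≠ 2 := by
      rintro rfl
      exact (Nat.not_even_iff_odd.2 hodd) (even_iff_two_dvd.2 hd)
    let R : Subgroup G :=
      { carrier := {c | c ∈ C ∧ c ^ r = 1}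
        one_mem' := ⟨one_mem _, one_pow r⟩
        mul_mem' := by
          rintro a b ⟨ha, ha'⟩ ⟨hb, hb'⟩
          refine ⟨mul_mem ha hb, ?_⟩
          rw [(show Commute a b from hab a ha b hb).mul_pow, ha', hb', one_mul]
        inv_mem' := by
          rintro a ⟨ha, ha'⟩
          exact ⟨inv_mem ha, by rw [inv_pow, ha', inv_one]⟩ }
    have hRm : ∀ c, c ∈ R ↔ c ∈ C ∧ c ^ r = 1 := fun c => Iff.rfl
    have hRC : R ≤ C := fun c hc => hc.1
    have hRodd : Odd (Nat.card R) := hodd.of_dvd_nat (card_dvd_of_le hRC)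
    have hord : ∀ c ∈ R, c ≠ 1 → orderOf c = r := fun c hc h1 => orderOf_eq_prime hc.2 h1
    have hR1 : ∀ c ∈ R, T1 * c * T1⁻¹ = c⁻¹ := by
      refine (inv_of_fpf hT12 R (fun c hc => ⟨hT1C c hc.1, by rw [conj_pow, hc.2]; group⟩) hRodd ?_).1
      intro c hc hcT
      by_contra h1
      have h2 := hord c hc h1
      rcases hc1 c hcT ((hCiff c).1 hc.1).2 (by rw [h2]; exact hr) with h3 | h3
      · exact hr2 (h2.symm.trans h3)
      · exact hne (h2.symm.trans h3)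
    have hR2 : ∀ c ∈ R, T2 * c * T2⁻¹ = c⁻¹ := by
      refine (inv_of_fpf hT22 R (fun c hc => ⟨hT2C c hc.1, by rw [conj_pow, hc.2]; group⟩) hRodd ?_).1
      intro c hc hcT
      by_contra h1
      have h2 := hord c hc h1
      rcases hc2 c hcT ((hCiff c).1 hc.1).1 (by rw [h2]; exact hr) with h3 | h3
      · exact hr2 (h2.symm.trans h3)
      · exact hne (h2.symm.trans h3)
    obtain ⟨c, hc⟩ := exists_prime_orderOf_dvd_card' r hd
    have hcr : orderOf (c : G) = r := by rw [← hc]; exact Subgroup.orderOf_coe c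
    have hcR : (c : G) ∈ R := ⟨c.2, by rw [← hcr, pow_orderOf_eq_one]⟩
    have h1 : (T1 * T2) * (c : G) * (T1 * T2)⁻¹ = c := by
      have h2 : (T1 * T2) * (c : G) * (T1 * T2)⁻¹ = T1 * (T2 * c * T2⁻¹) * T1⁻¹ := by group
      rw [h2, hR2 c hcR]
      have h3 : T1 * (c : G)⁻¹ * T1⁻¹ = (T1 * c * T1⁻¹)⁻¹ := by group
      rw [h3, hR1 c hcR, inv_inv]
    have h2 := hinv c c.2
    have h3 := hab _ hTv c c.2
    have h4 : (c : G)⁻¹ = c := by
      have h5 : T1 * T2 * v * (c : G) * (T1 * T2 * v)⁻¹ = c := by rw [h3]; group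
      have h6 : T1 * T2 * v * (c : G) * (T1 * T2 * v)⁻¹ = (T1 * T2) * (v * c * v⁻¹) * (T1 * T2)⁻¹ := by group
      rw [h6, h2] at h5
      have h7 : (T1 * T2) * (c : G)⁻¹ * (T1 * T2)⁻¹ = ((T1 * T2) * c * (T1 * T2)⁻¹)⁻¹ := by group
      rw [h7, h1] at h5
      exact h5
    have h5 : (c : G) ^ 2 = 1 := by
      rw [pow_two]
      nth_rewrite 1 [← h4]
      exact inv_mul_cancel _
    have h6 : orderOf (c : G) ∣ 2 := orderOf_dvd_of_pow_eq_one h5
    rw [hcr] at h6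
    exact hr2 ((Nat.prime_dvd_prime_iff_eq hr Nat.prime_two).1 h6)
  -- the parametrization
  have hle : 169 ≤ Nat.card C := by
    have h1 : Function.Injective (fun p : Fin 13 × Fin 13 =>
        (⟨y1 ^ (p.1 : ℕ) * y2 ^ (p.2 : ℕ), mul_mem (pow_mem hy1C _) (pow_mem hy2C _)⟩ : C)) := by
      intro p q hpq
      obtain ⟨h1, h2⟩ := inj_two hy o1 o2 hn p.1.2 p.2.2 q.1.2 q.2.2 (congrArg Subtype.val hpq)
      exact Prod.ext (Fin.ext h1) (Fin.ext h2)
    have h2 := Nat.card_le_card_of_injective _ h1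
    rwa [Nat.card_prod, Nat.card_eq_fintype_card, Fintype.card_fin] at h2
  have hcard : Nat.card C = 13 ^ 2 := by
    have h1 : Nat.card C = 13 ^ (Nat.card C).primeFactorsList.length :=
      Nat.eq_prime_pow_of_unique_prime_dvd Nat.card_pos.ne' fun {d} hd hdd => hprime d hd hdd
    generalize (Nat.card C).primeFactorsList.length = k at h1
    have h2 : k ≤ 2 := by
      by_contra hlt
      exact h13 ((pow_dvd_pow 13 (by omega)).trans (h1 ▸ card_subgroup_dvd_card C))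
    have h3 : 2 ≤ k := by
      by_contra hlt
      have h4 : 13 ^ k ≤ 13 ^ 1 := Nat.pow_le_pow_right (by norm_num) (by omega)
      omega
    rw [h1, show k = 2 by omega]
  refine ⟨hcard, fun c hc => hinv c ((hCm c).2 hc), fun c hc => ?_⟩
  have h1 : Function.Injective (fun p : Fin 13 × Fin 13 =>
      (⟨y1 ^ (p.1 : ℕ) * y2 ^ (p.2 : ℕ), mul_mem (pow_mem hy1C _) (pow_mem hy2C _)⟩ : C)) := by
    intro p q hpq
    obtain ⟨h1, h2⟩ := inj_two hy o1 o2 hn p.1.2 p.2.2 q.1.2 q.2.2 (congrArg Subtype.val hpq)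
    exact Prod.ext (Fin.ext h1) (Fin.ext h2)
  have h2 := ((Nat.bijective_iff_injective_and_card _).2 ⟨h1, by
    rw [hcard, Nat.card_prod, Nat.card_eq_fintype_card, Fintype.card_fin]; norm_num⟩).2 ⟨c, (hCm c).2 hc⟩
  obtain ⟨p, hp⟩ := h2
  exact ⟨p.1, p.2, (congrArg Subtype.val hp).symm⟩

end

end Cfsg.Agent.H47.TFour
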