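import Mathlib

/-!
# A Frobenius group `13 : 12` acting on an elementary abelian 2-group (helper47, S5936, tasks E and F)
-/

set_option autoImplicit false

namespace Cfsg.Agent.H47.TFour

open Subgroup

/-! ### F1 -/

theorem sum_pow_mul {E : Type*} [Ring E] {X : E} (hX : X ^ 13 = 1) {m : ℕ} (hm : Nat.Coprime m 13) :
    ∑ j ∈ Finset.range 13, X ^ (j * m) = ∑ j ∈ Finset.range 13, X ^ j := by
  refine Finset.sum_nbij (fun j => j * m % 13) ?_ ?_ ?_ ?_
  · intro j _
    exact Finset.mem_coe.2 (Finset.mem_range.2 (Nat.mod_lt _ (by norm_num)))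
  · intro i hi j hj h
    have hi' := Finset.mem_range.1 (Finset.mem_coe.1 hi)
    have hj' := Finset.mem_range.1 (Finset.mem_coe.1 hj)
    have h1 : i * m ≡ j * m [MOD 13] := h
    have h2 : i ≡ j [MOD 13] := Nat.ModEq.cancel_right_of_coprime (by rw [Nat.gcd_comm]; exact hm) h1
    rw [Nat.ModEq, Nat.mod_eq_of_lt hi', Nat.mod_eq_of_lt hj'] at h2
    exact h2
  · intro j hj
    have hj' := Finset.mem_range.1 (Finset.mem_coe.1 hj)
    obtain ⟨n, -, hn⟩ := Nat.exists_mul_mod_eq_one_of_coprime hm (by norm_num)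
    refine ⟨j * n % 13, Finset.mem_coe.2 (Finset.mem_range.2 (Nat.mod_lt _ (by norm_num))), ?_⟩
    show j * n % 13 * m % 13 = j
    rw [Nat.mod_mul_mod, mul_assoc, mul_comm n m, Nat.mul_mod, hn, mul_one, Nat.mod_mod, Nat.mod_eq_of_lt hj']
  · intro j _
    show X ^ (j * m) = X ^ (j * m % 13)
    conv_lhs => rw [← Nat.div_add_mod (j * m) 13]
    rw [pow_add, pow_mul, hX, one_pow, one_mul]

theorem s_pow {E : Type*} [Ring E] {X S : E} (h : S * X = X ^ 2 * S) (i j : ℕ) : S ^ i * X ^ j = X ^ (j * 2 ^ i) * S ^ i := by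
  have h1 : ∀ j : ℕ, S * X ^ j = X ^ (j * 2) * S := by
    intro j
    induction j with
    | zero => simp
    | succ j ih =>
      rw [pow_succ, ← mul_assoc, ih, mul_assoc, h, ← mul_assoc, ← pow_add]
      congr 2
      ring
  induction i generalizing j with
  | zero => simp
  | succ i ih =>
    rw [pow_succ, mul_assoc, h1, ← mul_assoc, ih, mul_assoc]
    congr 2
    ring

theorem ring_aux {E : Type*} [Ring E] {X S : E} (hX : X ^ 13 = 1) (hSX : S * X = X ^ 2 * S)
    (hsum : ∑ j ∈ Finset.range 13, X ^ j = 0) (hT : ∑ i ∈ Finset.range 12, S ^ i = 0) : (13 : E) = 0 := by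
  have h1 : ∀ j : ℕ, ∑ i ∈ Finset.range 12, X ^ (j * (12 + 2 ^ i)) * S ^ i = 0 := by
    intro j
    have h2 : X ^ (j * 12) * (∑ i ∈ Finset.range 12, S ^ i) * X ^ j = 0 := by rw [hT, mul_zero, zero_mul]
    rw [Finset.mul_sum, Finset.sum_mul] at h2
    rw [← h2]
    refine Finset.sum_congr rfl fun i _ => ?_
    rw [mul_assoc, s_pow hSX, ← mul_assoc, ← pow_add]
    congr 2
    ring
  have h2 : ∑ j ∈ Finset.range 13, ∑ i ∈ Finset.range 12, X ^ (j * (12 + 2 ^ i)) * S ^ i = 0 :=
    Finset.sum_eq_zero fun j _ => h1 j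
  rw [Finset.sum_comm, Finset.sum_range_succ'] at h2
  have h3 : ∀ i ∈ Finset.range 11, ∑ j ∈ Finset.range 13, X ^ (j * (12 + 2 ^ (i + 1))) * S ^ (i + 1) = 0 := by
    intro i hi
    rw [← Finset.sum_mul, sum_pow_mul hX, hsum, zero_mul]
    have hi' := Finset.mem_range.1 hi
    interval_cases i <;> decide
  rw [Finset.sum_eq_zero h3, zero_add] at h2
  have h4 : ∀ j ∈ Finset.range 13, X ^ (j * (12 + 2 ^ 0)) * S ^ 0 = 1 := by
    intro j _
    rw [pow_zero, pow_zero, mul_one, mul_comm, show 12 + 1 = 13 from rfl, pow_mul, hX, one_pow]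
  rw [Finset.sum_congr rfl h4] at h2
  simpa using h2

theorem exists_fix {G : Type*} [Group G] [Finite G] {x s : G} (x13 : x ^ 13 = 1) (s12 : s ^ 12 = 1)
    (hsx : s * x * s⁻¹ = x ^ 2) {N : Subgroup G} (hN : ∀ a ∈ N, a * a = 1) (hx : ∀ a ∈ N, x * a * x⁻¹ ∈ N)
    (hs : ∀ a ∈ N, s * a * s⁻¹ ∈ N) (hf : ∀ a ∈ N, a * x = x * a → a = 1) (hb : N ≠ ⊥) :
    ∃ n ∈ N, n ≠ 1 ∧ n * s = s * n := by
  classical
  have hcomm : ∀ a b : N, a * b = b * a := by
    intro a b
    have ha : a * a = 1 := Subtype.ext (hN a a.2)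
    have hb : b * b = 1 := Subtype.ext (hN b b.2)
    have hab : (a * b) * (a * b) = 1 := Subtype.ext (hN _ (a * b).2)
    have h1 : (a * b)⁻¹ = a * b := inv_eq_of_mul_eq_one_right hab
    rw [← h1, mul_inv_rev, inv_eq_of_mul_eq_one_right ha, inv_eq_of_mul_eq_one_right hb]
  let _ : CommGroup N := { (inferInstance : Group N) with mul_comm := hcomm }
  -- the two endomorphisms
  let cj : (g : G) → (∀ a ∈ N, g * a * g⁻¹ ∈ N) → AddMonoid.End (Additive N) := fun g hg =>
    { toFun := fun a => Additive.ofMul ⟨g * (Additive.toMul a : N) * g⁻¹, hg _ (Additive.toMul a).2⟩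
      map_zero' := by
        apply congrArg Additive.ofMul
        apply Subtype.ext
        show g * (1 : G) * g⁻¹ = 1
        group
      map_add' := fun a b => by
        apply congrArg Additive.ofMul
        apply Subtype.ext
        show g * ((Additive.toMul a : N) * (Additive.toMul b : N) : G) * g⁻¹ =
          (g * (Additive.toMul a : N) * g⁻¹) * (g * (Additive.toMul b : N) * g⁻¹)
        group }
  have hcj : ∀ (g : G) (hg : ∀ a ∈ N, g * a * g⁻¹ ∈ N) (a : Additive N),
      ((Additive.toMul (cj g hg a) : N) : G) = g * (Additive.toMul a : N) * g⁻¹ := fun _ _ _ => rfl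
  have hpow : ∀ (g : G) (hg : ∀ a ∈ N, g * a * g⁻¹ ∈ N) (k : ℕ) (a : Additive N),
      ((Additive.toMul (((cj g hg) ^ k) a) : N) : G) = g ^ k * (Additive.toMul a : N) * (g ^ k)⁻¹ := by
    intro g hg k
    induction k with
    | zero => intro a; simp
    | succ k ih =>
      intro a
      rw [pow_succ']
      show ((Additive.toMul (cj g hg (((cj g hg) ^ k) a)) : N) : G) = _
      rw [hcj, ih, pow_succ']
      group
  let X := cj x hx
  let S := cj s hs
  have hX : X ^ 13 = 1 := by
    ext a
    rw [hpow, x13]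
    simp
  have hSX : S * X = X ^ 2 * S := by
    ext a
    show ((Additive.toMul (S (X a)) : N) : G) = ((Additive.toMul ((X ^ 2) (S a)) : N) : G)
    rw [hcj, hcj, hpow, hcj, ← hsx]
    group
  have hsum : ∑ j ∈ Finset.range 13, X ^ j = 0 := by
    have h1 : X * ∑ j ∈ Finset.range 13, X ^ j = ∑ j ∈ Finset.range 13, X ^ j := by
      have h2 := Finset.sum_range_succ (fun j => X ^ j) 13
      have h3 := Finset.sum_range_succ' (fun j => X ^ j) 13
      rw [h2, hX, pow_zero] at h3
      have h4 := add_right_cancel h3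
      conv_rhs => rw [h4]
      rw [Finset.mul_sum]
      refine Finset.sum_congr rfl fun j _ => ?_
      rw [← pow_succ']
    ext a
    have h2 : X ((∑ j ∈ Finset.range 13, X ^ j) a) = (∑ j ∈ Finset.range 13, X ^ j) a :=
      congrArg (fun f : AddMonoid.End (Additive N) => f a) h1
    set c := (∑ j ∈ Finset.range 13, X ^ j) a with hc
    have h3 := hcj x hx c
    have h4 : ((Additive.toMul (cj x hx c) : N) : G) = (Additive.toMul c : N) :=
      congrArg (fun d : Additive N => ((Additive.toMul d : N) : G)) h2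
    rw [h4] at h3
    have h5 := hf _ (Additive.toMul c : N).2 (mul_inv_eq_iff_eq_mul.1 h3.symm).symm
    rw [h5]
    rfl
  have h2 : (2 : AddMonoid.End (Additive N)) = 0 := by
    ext a
    have h3 : (2 : AddMonoid.End (Additive N)) a = a + a := by
      rw [show (2 : AddMonoid.End (Additive N)) = 1 + 1 by norm_num]
      rfl
    rw [h3]
    show ((Additive.toMul a : N) : G) * (Additive.toMul a : N) = 1
    exact hN _ (Additive.toMul a : N).2
  by_contra hcon
  push Not at hcon
  have hT : ∑ i ∈ Finset.range 12, S ^ i = 0 := by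
    have h1 : S * ∑ j ∈ Finset.range 12, S ^ j = ∑ j ∈ Finset.range 12, S ^ j := by
      have hS : S ^ 12 = 1 := by
        ext a
        rw [hpow, s12]
        simp
      have h2 := Finset.sum_range_succ (fun j => S ^ j) 12
      have h3 := Finset.sum_range_succ' (fun j => S ^ j) 12
      rw [h2, hS, pow_zero] at h3
      have h4 := add_right_cancel h3
      conv_rhs => rw [h4]
      rw [Finset.mul_sum]
      refine Finset.sum_congr rfl fun j _ => ?_
      rw [← pow_succ']
    ext a
    have h2 : S ((∑ j ∈ Finset.range 12, S ^ j) a) = (∑ j ∈ Finset.range 12, S ^ j) a :=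
      congrArg (fun f : AddMonoid.End (Additive N) => f a) h1
    set c := (∑ j ∈ Finset.range 12, S ^ j) a with hc
    have h3 := hcj s hs c
    have h4 : ((Additive.toMul (cj s hs c) : N) : G) = (Additive.toMul c : N) :=
      congrArg (fun d : Additive N => ((Additive.toMul d : N) : G)) h2
    rw [h4] at h3
    have h5 : ((Additive.toMul c : N) : G) * s = s * (Additive.toMul c : N) := mul_inv_eq_iff_eq_mul.1 h3.symm |>.symm
    by_contra h6
    refine hcon _ (Additive.toMul c : N).2 ?_ h5
    intro h7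
    exact h6 h7
  have h13 := ring_aux hX hSX hsum hT
  have h1 : (1 : AddMonoid.End (Additive N)) = 0 := by
    have h3 : (13 : AddMonoid.End (Additive N)) = 2 * 6 + 1 := by norm_num
    rw [h3, h2, zero_mul, zero_add] at h13
    exact h13
  apply hb
  rw [eq_bot_iff]
  intro a ha
  have h3 := congrArg (fun f : AddMonoid.End (Additive N) => ((Additive.toMul (f (Additive.ofMul ⟨a, ha⟩)) : N) : G)) h1
  exact h3

end Cfsg.Agent.H47.TFour
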