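import Cfsg.Agent.H254.FxEvenTI
import Cfsg.Agent.H809.StrP.JTwo
import Cfsg.Agent.KFacts.J2.Facts

/-!
# `NoEv` for `J₂` (helper47, S3002, S2993)

Every involution commutes with an element of order 5 (`|C(z)| = 1920`, `|C(u)| = 240`).
-/

set_option autoImplicit false

namespace Cfsg.Agent.H47.NoEvJTwo

open Subgroup Cfsg Cfsg.Agent.H254.Ev

theorem simple_j2 {G : Type*} [Group G] (h : Cfsg.Spor.IsoJ2 G) : IsSimpleGroup G := by
  obtain ⟨e⟩ := h
  obtain ⟨f⟩ := Cfsg.Agent.J2.HundredGens.J2_iso Cfsg.Agent.S1619.result.2.2.2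
  have := Cfsg.Agent.SporadicA.J2Hundred.simple
  exact (MulEquiv.isSimpleGroup_congr (e.trans f)).2 this

theorem exists_five {G : Type*} [Group G] [Finite G] (h : Cfsg.Spor.IsoJ2 G) {s : G} (hs : orderOf s = 2) :
    ∃ y : G, orderOf y = 5 ∧ y * s = s * y := by
  have : Fact (Nat.Prime 5) := ⟨Nat.prime_five⟩
  obtain ⟨t, u, Q, v, ρ, D⟩ := Cfsg.Agent.KFacts.J2.Facts.exists_dat_of h
  have key : ∀ {a : G}, 5 ∣ Nat.card (centralizer ({a} : Set G)) → ∃ y : G, orderOf y = 5 ∧ y * a = a * y := by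
    intro a ha
    obtain ⟨y, hy⟩ := exists_prime_orderOf_dvd_card' 5 ha
    exact ⟨y, by rw [← hy]; exact Subgroup.orderOf_coe y, mem_centralizer_singleton_iff.1 y.2⟩
  have conj : ∀ {a b : G}, IsConj a b → (∃ y : G, orderOf y = 5 ∧ y * a = a * y) →
      ∃ y : G, orderOf y = 5 ∧ y * b = b * y := by
    rintro a b hab ⟨y, hy, hya⟩
    obtain ⟨g, rfl⟩ := isConj_iff.1 hab
    refine ⟨g * y * g⁻¹, by rw [← hy]; exact MulEquiv.orderOf_eq (MulAut.conj g) y, ?_⟩
    calc g * y * g⁻¹ * (g * a * g⁻¹) = g * (y * a) * g⁻¹ := by group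
      _ = g * (a * y) * g⁻¹ := by rw [hya]
      _ = _ := by group
  rcases D.F.cover s hs with h1 | h1
  · exact conj h1 (key (by rw [D.F.cardC]; norm_num))
  · exact conj h1 (key (by rw [D.card_cent_u]; norm_num))

theorem noEv_j2 {G : Type*} [Group G] [Finite G] (h : Cfsg.Spor.IsoJ2 G) : NoEv G := by
  rintro H hH ⟨t, ht, ht4⟩
  have hs : IsSimpleGroup G := simple_j2 h
  obtain ⟨a, haH, ha4⟩ := exists_conj_exact (by norm_num) ht4
  have ha2 : orderOf (a⁻¹ * t * a) = 2 := by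
    rw [← ht]
    have := MulEquiv.orderOf_eq (MulAut.conj a⁻¹) t
    simpa using this
  obtain ⟨y, hy, hyc⟩ := exists_five h ha2
  have ha1 : a⁻¹ * t * a ≠ 1 := by
    intro h1
    rw [h1, orderOf_one] at ha2
    omega
  have hyH : y ∈ H := hH.mem_of_comm le_rfl haH ha1 hyc (by rw [hy]; norm_num)
  have hd : 5 ∣ Nat.card H := by
    have h1 := orderOf_dvd_natCard (⟨y, hyH⟩ : H)
    rwa [Subgroup.orderOf_mk, hy] at h1
  exact hH.false_of_noSP le_rfl (ne_top_of_exact (by norm_num) ht4) Nat.prime_five le_rfl hd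
    (H809.StrP.JTwo.nosp_j2_5 h)

end Cfsg.Agent.H47.NoEvJTwo
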