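import Cfsg.Agent.TypeM.FactsMcL
import Cfsg.Agent.TypeM.FactsLy
import Cfsg.Agent.GTwoRows.Rows
import Cfsg.Agent.KFacts.QMinus
import Cfsg.Agent.CpAutJThree.Row

/-!
# Perfect involution centralizers: `J₃`, `McL`, `Ly` (helper47, S3002, S2993)

`C = 2^{1+4}:A₅`, `2.A₈`, `2.A₁₁`; one class of involutions in each.
-/

set_option autoImplicit false

namespace Cfsg.Agent.H47.PerfCent

open Subgroup Cfsg Cfsg.Agent.TypeM.Two

universe u

theorem comm_self_of_top {G : Type*} [Group G] {C : Subgroup G} (h : commutator ↥C = ⊤) : ⁅C, C⁆ = C := by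
  rw [← Subgroup.map_subtype_commutator, h, ← MonoidHom.range_eq_map, C.range_subtype]

theorem perf_mt {G : Type u} [Group G] {n : ℕ} (L : MT n G) (h5 : 5 ≤ n) (s : G) (hs : orderOf s = 2) :
    ⁅centralizer ({s} : Set G), centralizer ({s} : Set G)⁆ = centralizer ({s} : Set G) := by
  obtain ⟨h1, h2⟩ := MT.sq_of_orderOf hs
  obtain ⟨L', rfl⟩ := L.exists_rebase h1 h2
  exact comm_self_of_top (GTwoRows.cover_perfect L'.K h5)

theorem perf_mcl {G : Type*} [Group G] (h : Cfsg.Spor.IsoMcL G) (s : G) (hs : orderOf s = 2) :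
    ⁅centralizer ({s} : Set G), centralizer ({s} : Set G)⁆ = centralizer ({s} : Set G) := by
  obtain ⟨-, -, -, ⟨L⟩⟩ := TypeM.FactsMcL.facts h
  exact perf_mt L (by norm_num) s hs

theorem perf_ly {G : Type*} [Group G] (h : Cfsg.Spor.IsoLy G) (s : G) (hs : orderOf s = 2) :
    ⁅centralizer ({s} : Set G), centralizer ({s} : Set G)⁆ = centralizer ({s} : Set G) := by
  obtain ⟨-, -, -, ⟨L⟩⟩ := TypeM.FactsLy.facts h
  exact perf_mt L (by norm_num) s hs

theorem perf_j3 {G : Type*} [Group G] (h : Cfsg.Spor.IsoJ3 G) (s : G) (hs : orderOf s = 2) :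
    ⁅centralizer ({s} : Set G), centralizer ({s} : Set G)⁆ = centralizer ({s} : Set G) := by
  obtain ⟨-, hM, -, -⟩ := CpAutJThree.base h
  obtain ⟨-, hC, Q, v, ρ, M⟩ := hM s hs
  exact comm_self_of_top (KFacts.QMinus.perfect M)

end Cfsg.Agent.H47.PerfCent
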