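import Cfsg.Agent.KFacts.MM.Main
import Cfsg.Agent.H992.Stages.Mathieu
import Cfsg.Agent.H47.PerfCent

/-!
# Perfect involution centralizers: `M₂₃` (helper47, S3002, S2993)

The centralizer of `z` in `M₂₃` has order 2688; its commutator subgroup contains the Sylow 2-subgroup `S` of order 128 and elements of
order 3 and 7 (explicit commutators).
-/

set_option autoImplicit false

namespace Cfsg.Agent.H47.PerfMTwentyThree

open scoped commutatorElement
open Subgroup Cfsg Cfsg.Agent.KFacts.MM.El Cfsg.Agent.KFacts.MM.Data Cfsg.Agent.KFacts.MM.Sub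
open Cfsg.Agent.KFacts.MM.Int Cfsg.Agent.KFacts.MM.El16 Cfsg.Agent.KFacts.MM.Cent
open Cfsg.Agent.SporadicA.GolayBase Cfsg.Agent.SporadicA.GolayPerm

/-- rows `(t, a, b)` with `t = [a, b]`, `a`, `b` in the centralizer of `z` in `M₂₃` -/
def tbl : List (ℕ × ℕ × ℕ) := [
  (961365507626256404119956257276790816, 975187856998378010182888329059009600, 966599397489102402560166140259238976),
  (972512676110088067912772961567868960, 965016144069085667370957839074889152, 971791712990464534341636741177314752),
  (976448692869377735270425038196672544, 973054518210042674313238929715267616, 975039707762189751033271334713067521),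
  (963721886883755259286232606933354528, 967364703173633960573103763133339074, 984276915164183401399682230840229998),
  (965128854020860192151391391390468128, 979056245813237890249459945844047982, 972447348126199389715361059769075137),
  (966182099583441531322624363496310816, 976423388700190412755939577141070929, 976448692869377735270425038196672544),
  (967812279691448225500382947153381408, 979421602834920726024505833755261090, 982248109565342069823868368267152465),
  (968708902336673183175954409307867168, 966038785622409020378803434275569841, 979207331390849606607726029903607970),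
  (970499966350631336865513127433832480, 966071705053628941903947316825587822, 980224387687010295957922729495201824),
  (971592882964418941354553515258775584, 961407117891590235850198932814664782, 983053263435328418125297387142481454),
  (975346028712660580592452217730074656, 979121071158219704299181131031480352, 966566692427023322670829421812285505),
  (979121071158219704299181131031480352, 984597427560007516946698914572191169, 975151893267645411525093514733981218),
  (980224387687010295957922729495201824, 970283395505529608871687908877174897, 971781560465470563885298542586214449),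
  (981818691054096003685363657089320992, 969851210254494050847884094317007907, 966304093634642461135266555906495523),
  (983548720921252936276249910206105632, 984493597844424984103989971758779840, 968870865627342688774000968866010656),
  (960831283963798152912375878980765728, 971228554253582003870591254948940323, 976460096102506462584848658581195205),
  (960884477435128931241433760505432096, 969121744971674049307691893229291552, 964849852740214621349265705273851938),
  (961438956620049001677386430328277024, 965250858583673859741975371699097024, 981759000716584800037379100401765824),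
  (983553802664194553885244102129681472, 971589082025163809051610880333153745, 984811896368526027902876845265194432),
  (984696111737331329197801860296180261, 984730849673303422986486049713260997, 963803164948021592400582446519684642),
  (969223603802536920586621924783686757, 983546182684691078053928387744990673, 963645666370159502909378124225528837)]

/-- element of order 3 -/
def tP : ℕ := 984696111737331329197801860296180261

/-- element of order 7 -/
def sP : ℕ := 969223603802536920586621924783686757

/-- Boolean test for membership in the centralizer of `z` in `M₂₃` -/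
def okC (P : ℕ) : Bool :=
  isPerm P && (isAut P && (Nat.beq (papp P 23) 23 && weq [P, zP] [zP, P]))

/-- the centralizer of `z` in `M₂₃` -/
def CK : Subgroup (Equiv.Perm GolayPt) := Spor.M23 ⊓ centralizer ({z} : Set (Equiv.Perm GolayPt))

theorem mem_of_okC {P : ℕ} (h : okC P = true) : isPerm P = true ∧ pm P ∈ CK := by
  unfold okC at h
  rw [Bool.and_eq_true, Bool.and_eq_true, Bool.and_eq_true] at h
  obtain ⟨h1, h2, h3, h4⟩ := h
  refine ⟨h1, mem_inf.2 ⟨(SporadicA.MathieuRecog.mem_M23_iff _).2 ⟨pm_mem_M24 h1 h2, ?_⟩, ?_⟩⟩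
  · have h5 := val_pm h1 (i := 23) (by norm_num)
    rw [Nat.eq_of_beq_eq_true h3] at h5
    have h6 := pt_val (pm P) 23
    rw [h5] at h6
    exact h6.symm
  · rw [mem_centralizer_singleton_iff]
    have h5 := pr_of_weq (okl2 h1 permz) (okl2 permz h1) h4
    rw [pr_two, pr_two] at h5
    exact h5

/-- the row gives a commutator -/
def row (r : ℕ × ℕ × ℕ) : Bool :=
  okC r.2.1 && (okC r.2.2 && (isPerm r.1 && weq [r.1, r.2.2, r.2.1] [r.2.1, r.2.2]))

theorem rows : tbl.all row = true := by decide +kernel

theorem mem_comm {P : ℕ} (h : (tbl.any fun r => Nat.beq r.1 P) = true) : pm P ∈ ⁅CK, CK⁆ := by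
  obtain ⟨⟨t, a, b⟩, hr, h1⟩ := List.any_eq_true.1 h
  have e : t = P := Nat.eq_of_beq_eq_true h1
  subst e
  have h2 := List.all_eq_true.1 rows _ hr
  unfold row at h2
  rw [Bool.and_eq_true, Bool.and_eq_true, Bool.and_eq_true] at h2
  obtain ⟨ha, hb, ht, hw⟩ := h2
  obtain ⟨ha1, ha2⟩ := mem_of_okC ha
  obtain ⟨hb1, hb2⟩ := mem_of_okC hb
  have h3 := pr_of_weq (okl3 ht hb1 ha1) (okl2 ha1 hb1) hw
  rw [pr_three, pr_two] at h3
  have h4 : pm t = ⁅pm a, pm b⁆ := by
    rw [commutatorElement_def]
    have h5 : pm t * pm b * pm a = pm a * pm b := h3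
    calc pm t = pm t * pm b * pm a * (pm a)⁻¹ * (pm b)⁻¹ := by group
      _ = _ := by rw [h5]
  show pm t ∈ _
  rw [h4]
  exact commutator_mem_commutator ha2 hb2

theorem V_mem : V ≤ ⁅CK, CK⁆ := by
  rintro _ ⟨P, hP, rfl⟩
  have h : (VL.all fun P => weq [P] [] || tbl.any fun r => Nat.beq r.1 P) = true := by decide +kernel
  have h1 := List.all_eq_true.1 h P hP
  rw [Bool.or_eq_true] at h1
  rcases h1 with h1 | h1
  · have h2 := pr_of_weq (okl1 (pV hP)) rfl h1
    rw [pr_one, pr_nil] at h2
    rw [h2]
    exact one_mem _
  · exact mem_comm h1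

theorem W4_mem {P : ℕ} (hP : P ∈ W4) : pm P ∈ ⁅CK, CK⁆ := by
  have h : (W4.all fun P => weq [P] [] || tbl.any fun r => Nat.beq r.1 P) = true := by decide +kernel
  have h1 := List.all_eq_true.1 h P hP
  rw [Bool.or_eq_true] at h1
  rcases h1 with h1 | h1
  · have h2 := pr_of_weq (okl1 (pW (W4_sub hP))) rfl h1
    rw [pr_one, pr_nil] at h2
    rw [h2]
    exact one_mem _
  · exact mem_comm h1

theorem c_mem' : c ∈ ⁅CK, CK⁆ := mem_comm (by decide +kernel)

/-- every element of `W` lies in the product of `V` and `W4` -/
theorem W_mem : W ≤ ⁅CK, CK⁆ := by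
  rintro _ ⟨P, hP, rfl⟩
  have h : (WL.all fun P => VL.any fun Q => W4.any fun R => weq [P] [Q, R]) = true := by decide +kernel
  obtain ⟨Q, hQ, h1⟩ := List.any_eq_true.1 (List.all_eq_true.1 h P hP)
  obtain ⟨R, hR, h2⟩ := List.any_eq_true.1 h1
  have h3 := pr_of_weq (okl1 (pW hP)) (okl2 (pV hQ) (pW (W4_sub hR))) h2
  rw [pr_one, pr_two] at h3
  rw [h3]
  exact mul_mem (V_mem ⟨Q, hQ, rfl⟩) (W4_mem hR)

theorem S_mem : S ≤ ⁅CK, CK⁆ := by
  intro g hg
  obtain ⟨v, hv, w, hw, h | h⟩ := mem_S.1 hg
  · rw [h]; exact mul_mem (V_mem hv) (W_mem hw)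
  · rw [h]; exact mul_mem (mul_mem (V_mem hv) (W_mem hw)) c_mem'

theorem dvd_of_mem {P p : ℕ} (hp : p.Prime) (h : (tbl.any fun r => Nat.beq r.1 P) = true) (h0 : isPerm P = true)
    (h1 : weq (List.replicate p P) [] = true) (h2 : weq [P] [] = false) :
    p ∣ Nat.card ↥⁅CK, CK⁆ := by
  have hm := mem_comm h
  have hpr : ∀ n, pr (List.replicate n P) = pm P ^ n := by
    intro n
    induction n with
    | zero => rw [List.replicate_zero, pr_nil, pow_zero]
    | succ n ih => rw [List.replicate_succ, pr_cons, ih, pow_succ']
  have hok : okl (List.replicate p P) = true := by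
    unfold okl
    rw [List.all_eq_true]
    intro x hx
    rw [List.eq_of_mem_replicate hx, h0]
  have e1 : pm P ^ p = 1 := by
    rw [← hpr, pr_of_weq hok rfl h1, pr_nil]
  have e2 : pm P ≠ 1 := by
    have := pr_ne (okl1 h0) rfl h2
    rwa [pr_one, pr_nil] at this
  have : Fact p.Prime := ⟨hp⟩
  have e3 : orderOf (pm P) = p := orderOf_eq_prime e1 e2
  rw [← e3]
  have := orderOf_dvd_natCard (⟨pm P, hm⟩ : ↥⁅CK, CK⁆)
  rwa [Subgroup.orderOf_mk] at this

theorem card_S_eq : 2 ^ 7 ∣ Nat.card ↥⁅CK, CK⁆ := by
  have h1 : Nat.card S ∣ Nat.card ↥⁅CK, CK⁆ := card_dvd_of_le S_mem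
  have h2 := card_S_ge
  have h3 : IsPGroup 2 S := isPGroup
  obtain ⟨n, hn⟩ := IsPGroup.iff_card.1 h3
  rw [hn] at h1 h2
  refine (pow_dvd_pow 2 ?_).trans h1
  by_contra hlt
  have h4 : n ≤ 6 := by omega
  have h5 : 2 ^ n ≤ 2 ^ 6 := Nat.pow_le_pow_right (by norm_num) h4
  omega

theorem z_mem23 : z ∈ Spor.M23 := SporadicA.MathieuRecog.M22_le (V_le22 zV)

/-- `z` as an element of `M₂₃` -/
noncomputable def z' : Spor.M23 := ⟨z, z_mem23⟩

theorem zz : z * z = 1 := elV z zV

theorem orderOf_z' : orderOf z' = 2 := by
  apply orderOf_eq_prime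
  · rw [pow_two]; exact Subtype.ext zz
  · intro h; exact z1 (congrArg Subtype.val h)

theorem map_cent : (centralizer ({z'} : Set Spor.M23)).map Spor.M23.subtype = CK := by
  ext g
  constructor
  · rintro ⟨y, hy, rfl⟩
    refine mem_inf.2 ⟨y.2, ?_⟩
    rw [mem_centralizer_singleton_iff]
    exact congrArg Subtype.val (mem_centralizer_singleton_iff.1 hy)
  · intro hg
    obtain ⟨h1, h2⟩ := mem_inf.1 hg
    refine ⟨⟨g, h1⟩, ?_, rfl⟩
    rw [SetLike.mem_coe, mem_centralizer_singleton_iff]
    exact Subtype.ext (mem_centralizer_singleton_iff.1 h2)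

theorem card_CK : Nat.card ↥CK = 2688 := by
  rw [← map_cent, card_map_of_injective Spor.M23.subtype_injective]
  exact H992.Stages.card_cent_m23 orderOf_z'

/-- the centralizer of `z` is perfect -/
theorem perf_CK : ⁅CK, CK⁆ = CK := by
  have hle : ⁅CK, CK⁆ ≤ CK := by
    rw [commutator_le]
    intro a ha b hb
    exact mul_mem (mul_mem (mul_mem ha hb) (inv_mem ha)) (inv_mem hb)
  apply eq_of_le_of_card_ge hle
  rw [card_CK]
  have h3 : 3 ∣ Nat.card ↥⁅CK, CK⁆ := dvd_of_mem (P := tP) Nat.prime_three (by decide +kernel) (by decide +kernel)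
    (by decide +kernel) (by decide +kernel)
  have h7 : 7 ∣ Nat.card ↥⁅CK, CK⁆ := dvd_of_mem (P := sP) (by norm_num) (by decide +kernel) (by decide +kernel)
    (by decide +kernel) (by decide +kernel)
  have h2 := card_S_eq
  have h : 2 ^ 7 * (3 * 7) ∣ Nat.card ↥⁅CK, CK⁆ :=
    Nat.Coprime.mul_dvd_of_dvd_of_dvd (by norm_num) h2 (Nat.Coprime.mul_dvd_of_dvd_of_dvd (by norm_num) h3 h7)
  have hpos : 0 < Nat.card ↥⁅CK, CK⁆ := Nat.card_pos
  exact Nat.le_of_dvd hpos h

/-- transport along an isomorphism -/
theorem perf_equiv {G H : Type*} [Group G] [Group H] (e : G ≃* H) (s : G)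
    (h : ⁅centralizer ({e s} : Set H), centralizer ({e s} : Set H)⁆ = centralizer ({e s} : Set H)) :
    ⁅centralizer ({s} : Set G), centralizer ({s} : Set G)⁆ = centralizer ({s} : Set G) := by
  have hm : (centralizer ({s} : Set G)).map e.toMonoidHom = centralizer ({e s} : Set H) := by
    ext g
    constructor
    · rintro ⟨y, hy, rfl⟩
      rw [mem_centralizer_singleton_iff]
      show e y * e s = e s * e y
      rw [← map_mul, mem_centralizer_singleton_iff.1 hy, map_mul]
    · intro hg
      refine ⟨e.symm g, ?_, e.apply_symm_apply g⟩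
      rw [SetLike.mem_coe, mem_centralizer_singleton_iff]
      apply e.injective
      rw [map_mul, map_mul, e.apply_symm_apply]
      exact mem_centralizer_singleton_iff.1 hg
  apply map_injective (f := e.toMonoidHom) e.injective
  rw [map_commutator, hm, h]

theorem perf_z' : ⁅centralizer ({z'} : Set Spor.M23), centralizer ({z'} : Set Spor.M23)⁆ = centralizer ({z'} : Set Spor.M23) := by
  apply map_injective Spor.M23.subtype_injective
  rw [map_commutator, map_cent, perf_CK]

/-- **Perfect involution centralizers in `M₂₃`.** -/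
theorem perf_m23 {G : Type*} [Group G] (h : Cfsg.Spor.IsoM23 G) (s : G) (hs : orderOf s = 2) :
    ⁅centralizer ({s} : Set G), centralizer ({s} : Set G)⁆ = centralizer ({s} : Set G) := by
  obtain ⟨e⟩ := h
  have hs2 : orderOf (e s) = 2 := by rw [← hs]; exact MulEquiv.orderOf_eq e s
  have h2 : e s * e s = 1 := by rw [← pow_two, ← hs2, pow_orderOf_eq_one]
  have h1 : e s ≠ 1 := by
    intro h1
    rw [h1, orderOf_one] at hs2
    omega
  obtain ⟨g, hg, hgz⟩ := KFacts.MM.InvM22.inv23 (e s : Equiv.Perm GolayPt) (e s).2 (congrArg Subtype.val h2)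
    (fun h => h1 (Subtype.ext h))
  let g' : Spor.M23 := ⟨g, hg⟩
  have e1 : e s = (MulAut.conj g') z' := Subtype.ext hgz
  have key := perf_equiv (e.trans (MulAut.conj g')⁻¹) s
  apply key
  have e2 : (e.trans (MulAut.conj g')⁻¹) s = z' := by
    show (MulAut.conj g')⁻¹ (e s) = z'
    rw [e1]
    exact (MulAut.conj g').symm_apply_apply z'
  rw [e2]
  exact perf_z'

end Cfsg.Agent.H47.PerfMTwentyThree
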